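import Mathlib
import Cfsg.Agent.Lib.Helper43.OMinusBal.Defs

/-!
# S2733, package P-GB2, part a: the vectors as a space over the quadratic extension

For a matrix `g` with `g * g = c • 1`, `c` a non-square, the space `ι → F` is a vector space over
`F(√c) = QuadraticAlgebra F c 0` with `√c` acting as `g`. If `g` is a similarity of multiplier `c`
of a quadratic form `Q`, the polar form of `Q` is the first coordinate of a symmetric bilinear
form over `F(√c)`.
-/

set_option autoImplicit false

namespace Cfsg.Agent.Lib.Helper87.OMinusBal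

open Cfsg.Agent.Lib.Helper14 Cfsg.Agent.Lib.Helper43.OMinusBal Matrix

universe u

section

variable {F : Type u} [Field F] {ι : Type} [Fintype ι] [DecidableEq ι]

/-- The quadratic extension `F(√c)`. -/
abbrev QE (c : F) : Type u := QuadraticAlgebra F c 0

instance QE.instFact (c : F) [hc : Fact (¬ IsSquare c)] : Fact (∀ r : F, r ^ 2 ≠ c + 0 * r) :=
  ⟨fun r h => hc.out ⟨r, by rw [zero_mul, add_zero] at h; rw [← h, pow_two]⟩⟩

instance QE.instFinite (c : F) [Finite F] : Finite (QE c) :=
  Finite.of_equiv (F × F) (QuadraticAlgebra.equivProd c 0).symm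

theorem ne_zero_of_not_isSquare87 {c : F} (hc : ¬ IsSquare c) : c ≠ 0 := by
  rintro rfl
  exact hc ⟨0, by simp⟩

theorem QE.charP (c : F) [Fact (¬ IsSquare c)] (r : ℕ) [CharP F r] : CharP (QE c) r :=
  charP_of_injective_algebraMap (algebraMap F (QE c)).injective r

/-- The space `ι → F`, as a module over `F(√c)` with `√c` acting as `g`. -/
def VE (_g : Matrix ι ι F) (_c : F) : Type u := ι → F

namespace VE

variable (g : Matrix ι ι F) (c : F)

instance instAddCommGroup : AddCommGroup (VE g c) := inferInstanceAs (AddCommGroup (ι → F))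

instance instModuleF : Module F (VE g c) := inferInstanceAs (Module F (ι → F))

instance instFiniteF : Module.Finite F (VE g c) := inferInstanceAs (Module.Finite F (ι → F))

variable {g c} in
/-- The underlying vector. -/
def vec (x : VE g c) : ι → F := x

/-- A vector, as an element of the space over `F(√c)`. -/
def of (x : ι → F) : VE g c := x

theorem vec_of (x : ι → F) : (of g c x).vec = x := rfl

theorem of_vec (x : VE g c) : of g c x.vec = x := rfl

theorem vec_add (x y : VE g c) : (x + y).vec = x.vec + y.vec := rfl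

theorem vec_sub (x y : VE g c) : (x - y).vec = x.vec - y.vec := rfl

theorem vec_neg (x : VE g c) : (-x).vec = -x.vec := rfl

theorem vec_zero : (0 : VE g c).vec = 0 := rfl

theorem vec_smul (a : F) (x : VE g c) : (a • x).vec = a • x.vec := rfl

theorem vec_injective : Function.Injective (vec : VE g c → ι → F) := fun _ _ h => h

instance instSMulE : SMul (QE c) (VE g c) :=
  ⟨fun z x => z.re • x.vec + z.im • (g *ᵥ x.vec)⟩

theorem smul_def (z : QE c) (x : VE g c) :
    (z • x).vec = z.re • x.vec + z.im • (g *ᵥ x.vec) := rfl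

variable [hg : Fact (g * g = c • (1 : Matrix ι ι F))]

theorem gg (x : ι → F) : g *ᵥ (g *ᵥ x) = c • x := by
  rw [mulVec_mulVec, hg.out, smul_mulVec, one_mulVec]

instance instModuleE : Module (QE c) (VE g c) where
  one_smul x := by
    show (1 : QE c).re • x.vec + (1 : QE c).im • (g *ᵥ x.vec) = x.vec
    simp [QuadraticAlgebra.re_one, QuadraticAlgebra.im_one]
  mul_smul z w x := by
    show (z * w).re • x.vec + (z * w).im • (g *ᵥ x.vec) =
      z.re • (w.re • x.vec + w.im • (g *ᵥ x.vec)) +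
        z.im • (g *ᵥ (w.re • x.vec + w.im • (g *ᵥ x.vec)))
    rw [mulVec_add, mulVec_smul, mulVec_smul, gg g c]
    simp only [QuadraticAlgebra.re_mul, QuadraticAlgebra.im_mul]
    module
  smul_zero z := by
    show z.re • (0 : ι → F) + z.im • (g *ᵥ (0 : ι → F)) = 0
    simp
  smul_add z x y := by
    show z.re • (x.vec + y.vec) + z.im • (g *ᵥ (x.vec + y.vec)) =
      (z.re • x.vec + z.im • (g *ᵥ x.vec)) + (z.re • y.vec + z.im • (g *ᵥ y.vec))
    rw [mulVec_add]
    module
  add_smul z w x := by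
    show (z + w).re • x.vec + (z + w).im • (g *ᵥ x.vec) =
      (z.re • x.vec + z.im • (g *ᵥ x.vec)) + (w.re • x.vec + w.im • (g *ᵥ x.vec))
    simp only [QuadraticAlgebra.re_add, QuadraticAlgebra.im_add]
    module
  zero_smul x := by
    show (0 : QE c).re • x.vec + (0 : QE c).im • (g *ᵥ x.vec) = 0
    simp

instance instIsScalarTower : IsScalarTower F (QE c) (VE g c) where
  smul_assoc a z x := by
    show (a • z).re • x.vec + (a • z).im • (g *ᵥ x.vec) =
      a • (z.re • x.vec + z.im • (g *ᵥ x.vec))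
    simp only [QuadraticAlgebra.re_smul, QuadraticAlgebra.im_smul, smul_eq_mul]
    module

end VE

section form

variable (g : Matrix ι ι F) (c : F) [hg : Fact (g * g = c • (1 : Matrix ι ι F))]
variable (Q : QuadraticForm F (ι → F))

open QuadraticMap

omit hg [DecidableEq ι] in
theorem polar_gg87 (hgQ : ∀ v, Q (g *ᵥ v) = c * Q v) (x y : ι → F) :
    polar Q (g *ᵥ x) (g *ᵥ y) = c * polar Q x y := by
  unfold polar
  rw [← mulVec_add, hgQ, hgQ, hgQ]
  ring

theorem polar_g_left87 (hc0 : c ≠ 0) (hgQ : ∀ v, Q (g *ᵥ v) = c * Q v) (x y : ι → F) :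
    polar Q (g *ᵥ x) y = polar Q x (g *ᵥ y) := by
  have h1 := polar_gg87 g c Q hgQ x (g *ᵥ y)
  rw [VE.gg g c, polar_smul_right, smul_eq_mul] at h1
  exact mul_left_cancel₀ hc0 h1

theorem polar_gg_left87 (x y : ι → F) :
    polar Q (g *ᵥ (g *ᵥ x)) y = c * polar Q x y := by
  rw [VE.gg g c, polar_smul_left, smul_eq_mul]

/-- The bilinear form over `F(√c)` whose first coordinate is the polar form of `Q`. -/
noncomputable def BE (hc0 : c ≠ 0) (hgQ : ∀ v, Q (g *ᵥ v) = c * Q v) :
    LinearMap.BilinForm (QE c) (VE g c) :=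
  LinearMap.mk₂ (QE c)
    (fun x y => (⟨polar Q x.vec y.vec, c⁻¹ * polar Q (g *ᵥ x.vec) y.vec⟩ : QE c))
    (fun x x' y => by
      refine QuadraticAlgebra.ext ?_ ?_
      · show polar Q (x.vec + x'.vec) y.vec = polar Q x.vec y.vec + polar Q x'.vec y.vec
        exact polar_add_left Q _ _ _
      · show c⁻¹ * polar Q (g *ᵥ (x.vec + x'.vec)) y.vec =
          c⁻¹ * polar Q (g *ᵥ x.vec) y.vec + c⁻¹ * polar Q (g *ᵥ x'.vec) y.vec
        rw [mulVec_add, polar_add_left, mul_add])
    (fun z x y => by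
      refine QuadraticAlgebra.ext ?_ ?_
      · show polar Q (z.re • x.vec + z.im • (g *ᵥ x.vec)) y.vec =
          z.re * polar Q x.vec y.vec + c * z.im * (c⁻¹ * polar Q (g *ᵥ x.vec) y.vec)
        rw [polar_add_left, polar_smul_left, polar_smul_left, smul_eq_mul, smul_eq_mul]
        field_simp
      · show c⁻¹ * polar Q (g *ᵥ (z.re • x.vec + z.im • (g *ᵥ x.vec))) y.vec =
          z.re * (c⁻¹ * polar Q (g *ᵥ x.vec) y.vec) + z.im * polar Q x.vec y.vec +
            0 * z.im * (c⁻¹ * polar Q (g *ᵥ x.vec) y.vec)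
        rw [mulVec_add, mulVec_smul, mulVec_smul, polar_add_left, polar_smul_left,
          polar_smul_left, polar_gg_left87 g c Q, smul_eq_mul, smul_eq_mul]
        field_simp
        ring)
    (fun x y y' => by
      refine QuadraticAlgebra.ext ?_ ?_
      · show polar Q x.vec (y.vec + y'.vec) = polar Q x.vec y.vec + polar Q x.vec y'.vec
        exact polar_add_right Q _ _ _
      · show c⁻¹ * polar Q (g *ᵥ x.vec) (y.vec + y'.vec) =
          c⁻¹ * polar Q (g *ᵥ x.vec) y.vec + c⁻¹ * polar Q (g *ᵥ x.vec) y'.vec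
        rw [polar_add_right, mul_add])
    (fun z x y => by
      refine QuadraticAlgebra.ext ?_ ?_
      · show polar Q x.vec (z.re • y.vec + z.im • (g *ᵥ y.vec)) =
          z.re * polar Q x.vec y.vec + c * z.im * (c⁻¹ * polar Q (g *ᵥ x.vec) y.vec)
        rw [polar_add_right, polar_smul_right, polar_smul_right, smul_eq_mul, smul_eq_mul,
          polar_g_left87 g c Q hc0 hgQ]
        field_simp
      · show c⁻¹ * polar Q (g *ᵥ x.vec) (z.re • y.vec + z.im • (g *ᵥ y.vec)) =
          z.re * (c⁻¹ * polar Q (g *ᵥ x.vec) y.vec) + z.im * polar Q x.vec y.vec +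
            0 * z.im * (c⁻¹ * polar Q (g *ᵥ x.vec) y.vec)
        rw [polar_add_right, polar_smul_right, polar_smul_right, polar_gg87 g c Q hgQ,
          smul_eq_mul, smul_eq_mul]
        field_simp
        ring)

theorem BE_re (hc0 : c ≠ 0) (hgQ : ∀ v, Q (g *ᵥ v) = c * Q v) (x y : VE g c) :
    (BE g c Q hc0 hgQ x y).re = polar Q x.vec y.vec := rfl

theorem BE_im (hc0 : c ≠ 0) (hgQ : ∀ v, Q (g *ᵥ v) = c * Q v) (x y : VE g c) :
    (BE g c Q hc0 hgQ x y).im = c⁻¹ * polar Q (g *ᵥ x.vec) y.vec := rfl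

theorem BE_symm (hc0 : c ≠ 0) (hgQ : ∀ v, Q (g *ᵥ v) = c * Q v) (x y : VE g c) :
    BE g c Q hc0 hgQ x y = BE g c Q hc0 hgQ y x := by
  refine QuadraticAlgebra.ext ?_ ?_
  · rw [BE_re, BE_re, polar_comm]
  · rw [BE_im, BE_im, polar_g_left87 g c Q hc0 hgQ, polar_comm]

theorem BE_nondeg (hc0 : c ≠ 0) (hgQ : ∀ v, Q (g *ᵥ v) = c * Q v)
    (hQ : (polarBilin Q).Nondegenerate) (x : VE g c)
    (h : ∀ y, BE g c Q hc0 hgQ x y = 0) : x = 0 := by
  apply VE.vec_injective g c
  refine hQ.1 x.vec fun y => ?_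
  have h1 := congrArg QuadraticAlgebra.re (h (VE.of g c y))
  rw [BE_re] at h1
  exact h1

theorem BE_self_re (hc0 : c ≠ 0) (hgQ : ∀ v, Q (g *ᵥ v) = c * Q v) (x : VE g c) :
    (BE g c Q hc0 hgQ x x).re = 2 * Q x.vec := by
  rw [BE_re, polar_self]
  simp

end form

section dim

variable (g : Matrix ι ι F) (c : F) [hg : Fact (g * g = c • (1 : Matrix ι ι F))]
  [hc : Fact (¬ IsSquare c)]

instance VE.instFiniteE : Module.Finite (QE c) (VE g c) :=
  Module.Finite.of_restrictScalars_finite F (QE c) (VE g c)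

theorem VE.finrank_eq (k : ℕ) (hcard : Fintype.card ι = 2 * k) :
    Module.finrank (QE c) (VE g c) = k := by
  have h1 := Module.finrank_mul_finrank F (QE c) (VE g c)
  have h2 : Module.finrank F (QE c) = 2 := QuadraticAlgebra.finrank_eq_two c 0
  have h3 : Module.finrank F (VE g c) = Fintype.card ι :=
    Module.finrank_fintype_fun_eq_card F
  rw [h2, h3, hcard] at h1
  omega

end dim

section semi

variable (g : Matrix ι ι F) (c : F) [hg : Fact (g * g = c • (1 : Matrix ι ι F))]

/-- The extension of a field automorphism `σ` with `σ c = lam ^ 2 * c` to `F(√c)`, sending `√c`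
to `lam • √c`. -/
def sigHom (σ : F ≃+* F) (lam : F) (h : lam ^ 2 * c = σ c) : QE c →+* QE c where
  toFun z := ⟨σ z.re, lam * σ z.im⟩
  map_one' := by
    refine QuadraticAlgebra.ext ?_ ?_
    · show σ 1 = 1
      exact map_one σ
    · show lam * σ 0 = 0
      rw [map_zero, mul_zero]
  map_mul' z w := by
    refine QuadraticAlgebra.ext ?_ ?_
    · show σ (z.re * w.re + c * z.im * w.im) =
        σ z.re * σ w.re + c * (lam * σ z.im) * (lam * σ w.im)
      rw [map_add, map_mul, map_mul, map_mul, ← h]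
      ring
    · show lam * σ (z.re * w.im + z.im * w.re + 0 * z.im * w.im) =
        σ z.re * (lam * σ w.im) + lam * σ z.im * σ w.re + 0 * (lam * σ z.im) * (lam * σ w.im)
      simp only [map_add, map_mul, map_zero]
      ring
  map_zero' := by
    refine QuadraticAlgebra.ext ?_ ?_
    · show σ 0 = 0
      exact map_zero σ
    · show lam * σ 0 = 0
      rw [map_zero, mul_zero]
  map_add' z w := by
    refine QuadraticAlgebra.ext ?_ ?_
    · show σ (z.re + w.re) = σ z.re + σ w.re
      exact map_add σ _ _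
    · show lam * σ (z.im + w.im) = lam * σ z.im + lam * σ w.im
      rw [map_add, mul_add]

theorem sigHom_re (σ : F ≃+* F) (lam : F) (h : lam ^ 2 * c = σ c) (z : QE c) :
    (sigHom c σ lam h z).re = σ z.re := rfl

theorem sigHom_im (σ : F ≃+* F) (lam : F) (h : lam ^ 2 * c = σ c) (z : QE c) :
    (sigHom c σ lam h z).im = lam * σ z.im := rfl

/-- The extension as a ring automorphism. -/
noncomputable def sigE [Finite F] [Fact (¬ IsSquare c)] (σ : F ≃+* F) (lam : F)
    (h : lam ^ 2 * c = σ c) : QE c ≃+* QE c :=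
  RingEquiv.ofBijective (sigHom c σ lam h)
    ⟨RingHom.injective _, Finite.injective_iff_surjective.mp (RingHom.injective _)⟩

theorem sigE_apply [Finite F] [Fact (¬ IsSquare c)] (σ : F ≃+* F) (lam : F)
    (h : lam ^ 2 * c = σ c) (z : QE c) : sigE c σ lam h z = sigHom c σ lam h z := rfl

/-- The scalar of the commutation with `g` squares to `σ c / c`. -/
theorem lam_sq87 [Nonempty ι] (s : SemiGL ι F) (lam : F)
    (hlam : ∀ v, sact s (g *ᵥ v) = lam • (g *ᵥ sact s v)) : lam ^ 2 * c = s.right c := by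
  obtain ⟨i⟩ := ‹Nonempty ι›
  have h1 := hlam (g *ᵥ sact s⁻¹ (fun _ => 1))
  have e1 : sact s (g *ᵥ sact s⁻¹ (fun _ => 1)) = lam • (g *ᵥ (fun _ => (1 : F))) := by
    rw [hlam, sact_sact_inv]
  rw [e1, VE.gg g c, sact_smul, sact_sact_inv, mulVec_smul, VE.gg g c, smul_smul,
    smul_smul] at h1
  have h2 := congrFun h1 i
  simp only [Pi.smul_apply, smul_eq_mul, mul_one] at h2
  rw [h2]
  ring

theorem sact_semi87 (s : SemiGL ι F) (lam : F)
    (hlam : ∀ v, sact s (g *ᵥ v) = lam • (g *ᵥ sact s v)) (h : lam ^ 2 * c = s.right c)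
    (z : QE c) (x : VE g c) :
    VE.of g c (sact s (z • x).vec) = sigHom c s.right lam h z • VE.of g c (sact s x.vec) := by
  apply VE.vec_injective g c
  show sact s (z.re • x.vec + z.im • (g *ᵥ x.vec)) =
    s.right z.re • sact s x.vec + (lam * s.right z.im) • (g *ᵥ sact s x.vec)
  rw [sact_add, sact_smul, sact_smul, hlam, smul_smul, mul_comm lam]

variable (Q : QuadraticForm F (ι → F))

open QuadraticMap

omit hg in
theorem polar_sact87 (s : SemiGL ι F) (μ : F) (hμ : ∀ v, Q (sact s v) = μ * s.right (Q v))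
    (x y : ι → F) : polar Q (sact s x) (sact s y) = μ * s.right (polar Q x y) := by
  unfold polar
  rw [← sact_add, hμ, hμ, hμ, map_sub, map_sub]
  ring

theorem BE_sact87 (hc0 : c ≠ 0) (hgQ : ∀ v, Q (g *ᵥ v) = c * Q v) (s : SemiGL ι F) (lam : F)
    (hlam : ∀ v, sact s (g *ᵥ v) = lam • (g *ᵥ sact s v)) (h : lam ^ 2 * c = s.right c)
    (μ : F) (hμ : ∀ v, Q (sact s v) = μ * s.right (Q v)) (x y : VE g c) :
    BE g c Q hc0 hgQ (VE.of g c (sact s x.vec)) (VE.of g c (sact s y.vec)) =
      (⟨μ, 0⟩ : QE c) * sigHom c s.right lam h (BE g c Q hc0 hgQ x y) := by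
  have hσc : s.right c ≠ 0 := by
    intro h0
    exact hc0 ((map_eq_zero_iff s.right s.right.injective).mp h0)
  have hlam0 : lam ≠ 0 := by
    rintro rfl
    rw [← h] at hσc
    simp at hσc
  have hg' : g *ᵥ sact s x.vec = lam⁻¹ • sact s (g *ᵥ x.vec) := by
    rw [hlam, smul_smul, inv_mul_cancel₀ hlam0, one_smul]
  refine QuadraticAlgebra.ext ?_ ?_
  · rw [QuadraticAlgebra.re_mul, BE_re, sigHom_re, sigHom_im, BE_re, VE.vec_of, VE.vec_of,
      polar_sact87 Q s μ hμ]
    ring
  · rw [QuadraticAlgebra.im_mul, BE_im, sigHom_re, sigHom_im, BE_im, VE.vec_of, VE.vec_of, hg',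
      polar_smul_left, polar_sact87 Q s μ hμ, map_mul, map_inv₀, ← h, smul_eq_mul]
    field_simp
    ring

end semi

end

end Cfsg.Agent.Lib.Helper87.OMinusBal
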