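import Mathlib
import Cfsg.Agent.Lib.Helper87.OMinusBal.GB2a

/-!
# S2733, package P-GB2: the graph involutions of the second kind

`g * g = c • 1` with `c` a non-square and `g` a similarity of multiplier `c`: the set `S` of
semisimilarities acts on the space over `F(√c)` by semilinear similarities normalized by the
Siegel maps, so Lemma W makes them scalars of `F(√c)`.
-/

set_option autoImplicit false

namespace Cfsg.Agent.Lib.Helper87.OMinusBal

open Cfsg.Agent.Lib.Helper14 Cfsg.Agent.Lib.Helper43.OMinusBal Matrix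

universe u

section

variable {F : Type u} [Field F] {ι : Type} [Fintype ι] [DecidableEq ι]

theorem mat_ext87 {A B : Matrix ι ι F} (h : ∀ v, A *ᵥ v = B *ᵥ v) : A = B :=
  Matrix.toLin'.injective (LinearMap.ext h)

theorem pow_mulVec87 (A : Matrix ι ι F) (n : ℕ) (v : ι → F) :
    (A ^ n) *ᵥ v = (fun x => A *ᵥ x)^[n] v := by
  induction n generalizing v with
  | zero => simp
  | succ n ih => rw [pow_succ, ← mulVec_mulVec, ih, Function.iterate_succ_apply]

theorem sact_pow87 (s : SemiGL ι F) (n : ℕ) (v : ι → F) : sact (s ^ n) v = (sact s)^[n] v := by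
  induction n generalizing v with
  | zero => rw [pow_zero, sact_one]; rfl
  | succ n ih => rw [pow_succ, sact_mul, ih, Function.iterate_succ_apply]

theorem sact_inl87 (e : GL ι F) (v : ι → F) :
    sact (SemidirectProduct.inl e : SemiGL ι F) v = (e : Matrix ι ι F) *ᵥ v := rfl

variable (g : Matrix ι ι F) (c : F) [hg : Fact (g * g = c • (1 : Matrix ι ι F))]

theorem omega_smul87 (x : VE g c) : ((⟨0, 1⟩ : QE c) • x).vec = g *ᵥ x.vec := by
  rw [VE.smul_def]
  simp

theorem algebraMap_smul87 (a : F) (x : VE g c) : ((⟨a, 0⟩ : QE c) • x).vec = a • x.vec := by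
  rw [VE.smul_def]
  simp

/-- A pair of mutually inverse `F(√c)`-linear maps is given by an invertible matrix. -/
theorem exists_gl87 (T T' : VE g c →ₗ[QE c] VE g c) (h1 : ∀ x, T (T' x) = x)
    (h2 : ∀ x, T' (T x) = x) :
    ∃ e : GL ι F, (∀ v : ι → F, (e : Matrix ι ι F) *ᵥ v = (T (VE.of g c v)).vec) ∧
      (∀ v : ι → F, ((e⁻¹ : GL ι F) : Matrix ι ι F) *ᵥ v = (T' (VE.of g c v)).vec) := by
  have key : ∀ T : VE g c →ₗ[QE c] VE g c, ∃ TF : (ι → F) →ₗ[F] (ι → F),
      ∀ v, TF v = (T (VE.of g c v)).vec := by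
    intro T
    refine ⟨{ toFun := fun v => (T (VE.of g c v)).vec
              map_add' := fun v w => ?_
              map_smul' := fun a v => ?_ }, fun v => rfl⟩
    · show (T (VE.of g c v + VE.of g c w)).vec = (T (VE.of g c v)).vec + (T (VE.of g c w)).vec
      rw [map_add]
      rfl
    · show (T (a • VE.of g c v)).vec = a • (T (VE.of g c v)).vec
      rw [LinearMap.map_smul_of_tower]
      rfl
  obtain ⟨TF, hTF⟩ := key T
  obtain ⟨TF', hTF'⟩ := key T'
  have e1 : LinearMap.toMatrix' TF * LinearMap.toMatrix' TF' = 1 := by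
    rw [← LinearMap.toMatrix'_comp]
    have : TF ∘ₗ TF' = LinearMap.id := by
      refine LinearMap.ext fun v => ?_
      rw [LinearMap.comp_apply, hTF, hTF']
      exact congrArg VE.vec (h1 (VE.of g c v))
    rw [this, LinearMap.toMatrix'_id]
  have e2 : LinearMap.toMatrix' TF' * LinearMap.toMatrix' TF = 1 := by
    rw [← LinearMap.toMatrix'_comp]
    have : TF' ∘ₗ TF = LinearMap.id := by
      refine LinearMap.ext fun v => ?_
      rw [LinearMap.comp_apply, hTF, hTF']
      exact congrArg VE.vec (h2 (VE.of g c v))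
    rw [this, LinearMap.toMatrix'_id]
  refine ⟨⟨LinearMap.toMatrix' TF, LinearMap.toMatrix' TF', e1, e2⟩, fun v => ?_, fun v => ?_⟩
  · show LinearMap.toMatrix' TF *ᵥ v = _
    rw [← Matrix.toLin'_apply, Matrix.toLin'_toMatrix', hTF]
  · show LinearMap.toMatrix' TF' *ᵥ v = _
    rw [← Matrix.toLin'_apply, Matrix.toLin'_toMatrix', hTF']

variable (Q : QuadraticForm F (ι → F))

/-- The Siegel maps of the form over `F(√c)` are isometries of `Q` of `r`-power one commuting
with `g`. -/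
theorem siegel_gl87 [Fact (¬ IsSquare c)] (r : ℕ) [Fact r.Prime] [CharP F r] (hr2 : r ≠ 2)
    (hc0 : c ≠ 0) (hgQ : ∀ v, Q (g *ᵥ v) = c * Q v) (u w : VE g c)
    (hu : BE g c Q hc0 hgQ u u = 0) (huw : BE g c Q hc0 hgQ u w = 0) :
    ∃ e : GL ι F, (∀ v, Q ((e : Matrix ι ι F) *ᵥ v) = Q v) ∧
      (e : Matrix ι ι F) * g = g * (e : Matrix ι ι F) ∧ e ^ r = 1 ∧
      (∀ v : ι → F, (e : Matrix ι ι F) *ᵥ v =
        (siegel (BE g c Q hc0 hgQ) u w (VE.of g c v)).vec) ∧
      (∀ v : ι → F, ((e⁻¹ : GL ι F) : Matrix ι ι F) *ᵥ v =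
        (siegel (BE g c Q hc0 hgQ) u (-w) (VE.of g c v)).vec) := by
  haveI : CharP (QE c) r := QE.charP c r
  have h2E : (2 : QE c) ≠ 0 := two_ne_zero_of_charP r hr2
  have h2F : (2 : F) ≠ 0 := two_ne_zero_of_charP r hr2
  have hsym := BE_symm g c Q hc0 hgQ
  obtain ⟨e, he1, he2⟩ := exists_gl87 g c
    { toFun := siegel (BE g c Q hc0 hgQ) u w
      map_add' := siegel_add _ u w
      map_smul' := fun z x => siegel_smul _ u w z x }
    { toFun := siegel (BE g c Q hc0 hgQ) u (-w)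
      map_add' := siegel_add _ u (-w)
      map_smul' := fun z x => siegel_smul _ u (-w) z x }
    (fun x => siegel_neg_cancel _ hsym h2E hu huw x)
    (fun x => siegel_neg_cancel' _ hsym h2E hu huw x)
  have he1' : ∀ v : ι → F, (e : Matrix ι ι F) *ᵥ v =
      (siegel (BE g c Q hc0 hgQ) u w (VE.of g c v)).vec := he1
  have he2' : ∀ v : ι → F, ((e⁻¹ : GL ι F) : Matrix ι ι F) *ᵥ v =
      (siegel (BE g c Q hc0 hgQ) u (-w) (VE.of g c v)).vec := he2
  refine ⟨e, fun v => ?_, ?_, ?_, he1', he2'⟩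
  · rw [he1']
    have h1 := congrArg QuadraticAlgebra.re
      (siegel_form (BE g c Q hc0 hgQ) hsym h2E hu huw (VE.of g c v) (VE.of g c v))
    rw [BE_self_re, BE_self_re, VE.vec_of] at h1
    exact mul_left_cancel₀ h2F h1
  · refine mat_ext87 fun v => ?_
    rw [← mulVec_mulVec, ← mulVec_mulVec, he1', he1']
    have h1 : VE.of g c (g *ᵥ v) = (⟨0, 1⟩ : QE c) • VE.of g c v := by
      apply VE.vec_injective g c
      rw [omega_smul87]
      rfl
    rw [h1, siegel_smul, omega_smul87]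
  · apply Units.ext
    rw [Units.val_pow_eq_pow_val, Units.val_one]
    refine mat_ext87 fun v => ?_
    rw [pow_mulVec87, one_mulVec]
    have h1 : (fun x => (e : Matrix ι ι F) *ᵥ x) =
        fun x => (siegel (BE g c Q hc0 hgQ) u w (VE.of g c x)).vec := funext he1'
    rw [h1]
    exact siegel_iterate_char (BE g c Q hc0 hgQ) hsym h2E r hu huw (VE.of g c v)

/-- The maps of the space over `F(√c)` given by the elements of `S`. -/
def MS (S : Set (SemiGL ι F)) : Set (VE g c → VE g c) :=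
  {ψ | ∃ s ∈ S, ∀ x, (ψ x).vec = sact s x.vec}

omit hg in
theorem iter_vec87 (ψ : VE g c → VE g c) (s : SemiGL ι F)
    (hψ : ∀ x, (ψ x).vec = sact s x.vec) (n : ℕ) (x : VE g c) :
    (ψ^[n] x).vec = sact (s ^ n) x.vec := by
  induction n generalizing x with
  | zero => rw [pow_zero, sact_one]; rfl
  | succ n ih => rw [Function.iterate_succ_apply, ih, hψ, pow_succ, sact_mul]

theorem mdata87 [Fintype F] [Fact (¬ IsSquare c)] [Nonempty ι] (r : ℕ) [Fact r.Prime]
    [CharP F r] (hr2 : r ≠ 2) (hc0 : c ≠ 0) (hgQ : ∀ v, Q (g *ᵥ v) = c * Q v)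
    (S : Set (SemiGL ι F)) (hS : SData Q r g S) :
    MData (BE g c Q hc0 hgQ) (MS g c S) := by
  refine ⟨?_, ?_, ?_, ?_⟩
  · rintro ψ ⟨s, hs, hψ⟩
    have hψ' : ∀ x, ψ x = VE.of g c (sact s x.vec) := fun x => VE.vec_injective g c (hψ x)
    obtain ⟨lam, hlam⟩ := hS.comm s hs
    obtain ⟨μ, hμ⟩ := (mem_semiSim_iff (⇑Q) s).mp (hS.semi s hs)
    have h := lam_sq87 g c s lam hlam
    refine ⟨sigE c s.right lam h, ⟨(μ : F), 0⟩, ?_, fun x y => ?_, fun z x => ?_, fun x y => ?_⟩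
    · intro h0
      exact μ.ne_zero (congrArg QuadraticAlgebra.re h0)
    · apply VE.vec_injective g c
      rw [hψ, VE.vec_add, sact_add, VE.vec_add, hψ, hψ]
    · rw [hψ', hψ', sigE_apply]
      exact sact_semi87 g c s lam hlam h z x
    · rw [hψ', hψ', sigE_apply]
      exact BE_sact87 g c Q hc0 hgQ s lam hlam h μ hμ x y
  · rintro ψ ⟨s, hs, hψ⟩ ψ' ⟨s', hs', hψ'⟩
    exact ⟨s * s', hS.mul s hs s' hs', fun x => by
      rw [Function.comp_apply, hψ, hψ', sact_mul]⟩
  · rintro ψ ⟨s, hs, hψ⟩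
    refine ⟨fun x => VE.of g c (sact s⁻¹ x.vec), ⟨s⁻¹, hS.inv s hs, fun x => rfl⟩, ?_, ?_⟩
    · funext x
      apply VE.vec_injective g c
      rw [Function.comp_apply, hψ, VE.vec_of, sact_sact_inv]
      rfl
    · funext x
      apply VE.vec_injective g c
      rw [Function.comp_apply, VE.vec_of, hψ, sact_inv_sact]
      rfl
  · rintro ψ ⟨s, hs, hψ⟩ u w hu huw
    obtain ⟨e, he1, he2, he3, he4, he5⟩ := siegel_gl87 g c Q r hr2 hc0 hgQ u w hu huw
    refine ⟨SemidirectProduct.inl e * s * (SemidirectProduct.inl e)⁻¹,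
      hS.conj s hs e he1 he2 he3, fun x => ?_⟩
    rw [← map_inv, sact_mul, sact_mul, sact_inl87, sact_inl87, he4, he5, Function.comp_apply,
      Function.comp_apply, ← hψ]
    rfl

/-- Package P-GB2 of S2733. -/
theorem gb2 (hW : LemW.{u, u}) (hI : LemIso.{u, u}) : GB2.{u} := by
  intro F _ _ ι _ _ Q hQ r _ _ hr2 k hk hk3 hcard g c hc hgg hgQ S hS s hs
  haveI : Fact (¬ IsSquare c) := ⟨hc⟩
  haveI : Fact (g * g = c • (1 : Matrix ι ι F)) := ⟨hgg⟩
  have hc0 := ne_zero_of_not_isSquare87 hc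
  haveI : CharP (QE c) r := QE.charP c r
  haveI : Nonempty ι := by
    rw [← Fintype.card_pos_iff, hcard]
    omega
  obtain ⟨i0⟩ := ‹Nonempty ι›
  have h2F : (2 : F) ≠ 0 := two_ne_zero_of_charP r hr2
  have h2E : (2 : QE c) ≠ 0 := two_ne_zero_of_charP r hr2
  have hsym := BE_symm g c Q hc0 hgQ
  have hnd := BE_nondeg g c Q hc0 hgQ hQ
  have hfr := VE.finrank_eq g c k hcard
  have hdim : Module.finrank (QE c) (VE g c) = 3 ∨ 5 ≤ Module.finrank (QE c) (VE g c) := by
    rw [hfr]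
    obtain ⟨j, rfl⟩ := hk
    omega
  have hiso := hI (BE g c Q hc0 hgQ) h2E hsym hnd (by rw [hfr]; exact hk3)
  have hM := mdata87 g c Q r hr2 hc0 hgQ S hS
  have hodd : ∀ ψ ∈ MS g c S, ∃ (k : ℕ) (α : QE c), Odd k ∧ ∀ x, ψ^[k] x = α • x := by
    rintro ψ ⟨s, hs, hψ⟩
    obtain ⟨n, lam, hn, hlam⟩ := hS.odd s hs
    refine ⟨n, ⟨lam, 0⟩, hn, fun x => ?_⟩
    apply VE.vec_injective g c
    rw [iter_vec87 g c ψ s hψ, hlam, algebraMap_smul87]
  have key := hW r hr2 (BE g c Q hc0 hgQ) hsym hnd hdim hiso (MS g c S) hM hodd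
  obtain ⟨ε, hε⟩ := key (fun x => VE.of g c (sact s x.vec)) ⟨s, hs, fun x => rfl⟩
  have hε' : ∀ v : ι → F, sact s v = ε.re • v + ε.im • (g *ᵥ v) :=
    fun v => congrArg VE.vec (hε (VE.of g c v))
  -- the field automorphism is trivial
  have hright : s.right = 1 := by
    apply RingEquiv.ext
    intro t
    have h1 := sact_smul s t (sact s⁻¹ (fun _ => 1))
    rw [hε' (t • sact s⁻¹ (fun _ => 1)), mulVec_smul, smul_comm ε.re t, smul_comm ε.im t,
      ← smul_add, ← hε', sact_sact_inv] at h1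
    have h2 := congrFun h1 i0
    simp only [Pi.smul_apply, smul_eq_mul, mul_one] at h2
    exact h2.symm
  have hleft : (s.left : Matrix ι ι F) = ε.re • (1 : Matrix ι ι F) + ε.im • g := by
    refine mat_ext87 fun v => ?_
    rw [add_mulVec, smul_mulVec, smul_mulVec, one_mulVec, ← hε']
    unfold sact
    rw [hright]
    rfl
  obtain ⟨μ, hμ⟩ := (mem_semiSim_iff (⇑Q) s).mp (hS.semi s hs)
  -- the square of `ε` multiplies the first coordinates of the form by `μ`
  have hsq : ∀ x y : VE g c, (ε * ε * BE g c Q hc0 hgQ x y).re =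
      (μ : F) * (BE g c Q hc0 hgQ x y).re := by
    intro x y
    have h1 : BE g c Q hc0 hgQ (ε • x) (ε • y) = ε * ε * BE g c Q hc0 hgQ x y := by
      simp only [map_smul, LinearMap.smul_apply, smul_eq_mul, mul_assoc]
    rw [← h1, ← hε x, ← hε y, BE_re, VE.vec_of, VE.vec_of, polar_sact87 Q s μ hμ, hright, BE_re]
    rfl
  have hx0 : VE.of g c (fun _ => (1 : F)) ≠ 0 := by
    intro h0
    have h1 := congrFun (congrArg VE.vec h0) i0
    exact one_ne_zero h1
  obtain ⟨y0, hy0⟩ : ∃ y0, BE g c Q hc0 hgQ (VE.of g c (fun _ => (1 : F))) y0 ≠ 0 := by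
    by_contra hcon
    push_neg at hcon
    exact hx0 (hnd _ hcon)
  have hval : BE g c Q hc0 hgQ (VE.of g c (fun _ => (1 : F)))
      (((⟨0, 1⟩ : QE c) * (BE g c Q hc0 hgQ (VE.of g c (fun _ => (1 : F))) y0)⁻¹) • y0) =
      (⟨0, 1⟩ : QE c) := by
    rw [map_smul, smul_eq_mul, mul_assoc, inv_mul_cancel₀ hy0, mul_one]
  have h3 := hsq (VE.of g c (fun _ => (1 : F)))
    (((⟨0, 1⟩ : QE c) * (BE g c Q hc0 hgQ (VE.of g c (fun _ => (1 : F))) y0)⁻¹) • y0)
  rw [hval] at h3
  simp only [QuadraticAlgebra.re_mul, QuadraticAlgebra.im_mul, mul_zero, mul_one, zero_mul,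
    add_zero, zero_add] at h3
  have h4 : ε.re * ε.im = 0 := by
    have h5 : c * (2 * (ε.re * ε.im)) = 0 := by
      linear_combination h3
    rcases mul_eq_zero.mp h5 with h6 | h6
    · exact absurd h6 hc0
    · rcases mul_eq_zero.mp h6 with h7 | h7
      · exact absurd h7 h2F
      · exact h7
  refine ⟨hright, ?_⟩
  rcases mul_eq_zero.mp h4 with h5 | h5
  · right
    refine ⟨ε.im, ?_⟩
    rw [hleft, h5, zero_smul, zero_add]
  · left
    refine ⟨ε.re, ?_⟩
    rw [hleft, h5, zero_smul, add_zero]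

end

end Cfsg.Agent.Lib.Helper87.OMinusBal
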